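import Cfsg.Agent.KFacts.FiTTh.Has
import Cfsg.Agent.H999.IF.EngB
import Cfsg.Agent.H209.IF.Kill
import Cfsg.Agent.H757.IF.Fi23

/-!
# S5719, row `Fi23`: the facts (helper822) for the kill of helper757

The sheet of `D8`, 4-transitivity of `N(A)` on the 23 transpositions of `A`, and the bounds for the class sizes:
`31671`, `31671 * 3510`, `31671 * 3510 * 693 / 3`; `kill_of`, `row_of`: the row from the kill.
-/

set_option autoImplicit false

namespace Cfsg.Agent.H822.IF.Fi23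

open Cfsg Subgroup
open Cfsg.Agent.Lib.ClassFrame
open Cfsg.Agent.KFacts.FiTTh
open Cfsg.Spor Cfsg.Spor.Fi23
open Cfsg.Agent.Fischer.Fi23Z Cfsg.Agent.Fischer.Fi23Simple Cfsg.Agent.Fischer.Fi23Hom

/-- the 23 transpositions -/
noncomputable def a (i : Fin 23) : Spor.Fi23 := BasFi.e (some (Has.s i))

theorem a0 : a 0 = z0 := by rw [a, Has.s0, BasFi.e_z]
theorem a1 : a 1 = gen .a := by rw [a, Has.s1, BasFi.e_a]
theorem a2 : a 2 = gen .c := by rw [a, Has.s2, BasFi.e_c]

theorem sheet : ∃ S : Sylow 2 Spor.Fi23, OddHalf.D8.Fi23.Sheet Spor.Fi23 (BasDef.A BasFi.e) S a := Has.sheet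

theorem four (x y : Fin 4 ↪ Fin 23) : ∃ n ∈ normalizer (BasDef.A BasFi.e : Set Spor.Fi23), ∀ i, n * a (x i) * n⁻¹ = a (y i) :=
  BasSheet.four Has.loc (x.trans Has.s.toEmbedding) (y.trans Has.s.toEmbedding)

theorem finite : Finite Spor.Fi23 := Nat.finite_of_card_ne_zero (by rw [card_Fi23]; norm_num)

/-- the index of a subgroup of order at least `m` -/
theorem index_le {H : Subgroup Spor.Fi23} {m c : ℕ} (hm : 0 < m) (hc : m * c = 4089470473293004800) (hH : m ≤ Nat.card H) :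
    H.index ≤ c := by
  have h1 := H.card_mul_index
  rw [card_Fi23, ← hc] at h1
  have h2 : m * H.index ≤ m * c := by
    rw [← h1]
    exact Nat.mul_le_mul_right _ hH
  exact Nat.le_of_mul_le_mul_left h2 hm

theorem c1 : (centralizer ({a 0} : Set Spor.Fi23)).index ≤ 31671 := by
  have h1 : Nat.card (centralizer ({a 0} : Set Spor.Fi23)) = 2 * 64561751654400 := by
    rw [a0, ← Cent.K_eq]
    exact Cent.card_K
  exact index_le (m := 2 * 64561751654400) (by norm_num) (by norm_num) h1.ge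

/-! ### The first three elements of the frame -/

theorem card_St {k P : ℕ} (hk : k ≤ 11) (hP : ∏ i ∈ Finset.range k, Inn.N i = P) :
    4089470473293004800 ≤ P * Nat.card (St Inn.s k) := by
  have := finite
  have h1 := card_eq_prod Inn.s k
  rw [card_Fi23] at h1
  rw [← hP, h1]
  apply Nat.mul_le_mul_right
  apply Finset.prod_le_prod' 
  intro i hi
  have hi' : i < 11 := lt_of_lt_of_le (Finset.mem_range.1 hi) hk
  refine le_trans (Set.ncard_le_ncard ?_ (Set.toFinite _)) (Inn.hN i hi')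
  exact orb_subset_cand Inn.D_conj (Inn.el_mem _) (Inn.hne i hi')

/-- the triple in the frame of `A` -/
noncomputable def t (k : ℕ) : Spor.Fi23 := if k = 0 then a 0 else if k = 1 then a 1 else a 2

theorem t0 : t 0 = a 0 := rfl
theorem t1 : t 1 = a 1 := rfl
theorem t2 : t 2 = a 2 := rfl

theorem a_comm (i j : Fin 23) : a i * a j = a j * a i := by
  obtain ⟨S, h⟩ := sheet
  have h1 := h.sq _ (mul_mem (h.mem i) (h.mem j))
  have hi := h.sq _ (h.mem i)
  have hj := h.sq _ (h.mem j)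
  calc a i * a j = a i * (a i * a j * (a i * a j)) * a j := by rw [h1, mul_one]
    _ = (a i * a i) * (a j * a i) * (a j * a j) := by simp only [mul_assoc]
    _ = a j * a i := by rw [hi, hj, one_mul, mul_one]

theorem exists_conj_t : ∃ g : Spor.Fi23, ∀ k < 3, t k = g * Inn.s k * g⁻¹ := by
  have := finite
  have hcom : ∀ k < 3, ∀ i < k, Commute (Inn.s i) (Inn.s k) := by
    intro k hk i hi
    have : FrameChk.relO (FrameChk.nm i) (FrameChk.nm k) = false := by
      interval_cases k <;> interval_cases i <;> decide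
    by_contra hc
    have h1 := (Inn.ncomm_iff _ _).1 hc
    rw [this] at h1
    exact Bool.noConfusion h1
  refine exists_conj (m := 3) Inn.D_conj (fun k hk => Inn.orb_eq k (by omega)) t ?_ ?_ ?_
  · intro k hk
    interval_cases k
    · rw [t0, a0]; exact IsConj.refl _
    · rw [t1, a1]; exact Inn.el_mem (some .a)
    · rw [t2, a2]; exact Inn.el_mem (some .c)
  · intro k hk i hi
    have hcase : (k = 1 ∧ i = 0) ∨ (k = 2 ∧ i = 0) ∨ (k = 2 ∧ i = 1) := by omega
    rcases hcase with ⟨rfl, rfl⟩ | ⟨rfl, rfl⟩ | ⟨rfl, rfl⟩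
    · rw [t1, t0, a1, a0]; exact Cent.ne_gen_a
    · rw [t2, t0, a2, a0]; exact Cent.ne_gen_c
    · rw [t2, t1, a2, a1]
      intro h
      have := Inn.el_inj (x := some .c) (y := some .a) h
      simp at this
  · intro k hk i hi
    refine iff_of_true ?_ (hcom k hk i hi)
    have hcase : (k = 1 ∧ i = 0) ∨ (k = 2 ∧ i = 0) ∨ (k = 2 ∧ i = 1) := by omega
    rcases hcase with ⟨rfl, rfl⟩ | ⟨rfl, rfl⟩ | ⟨rfl, rfl⟩
    · exact a_comm 0 1
    · exact a_comm 0 2
    · exact a_comm 1 2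

/-- the centralizers of the first elements of `t` -/
theorem card_St_t {k : ℕ} (hk : k ≤ 3) : Nat.card (St t k) = Nat.card (St Inn.s k) := by
  obtain ⟨g, hg⟩ := exists_conj_t
  have h1 : (St Inn.s k).map (MulAut.conj g).toMonoidHom = St t k := by
    ext x
    constructor
    · rintro ⟨y, hy, rfl⟩ i hi
      rw [hg i (lt_of_lt_of_le hi hk)]
      show g * y * g⁻¹ * (g * Inn.s i * g⁻¹) = g * Inn.s i * g⁻¹ * (g * y * g⁻¹)
      calc g * y * g⁻¹ * (g * Inn.s i * g⁻¹) = g * (y * Inn.s i) * g⁻¹ := by group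
        _ = g * (Inn.s i * y) * g⁻¹ := by rw [hy i hi]
        _ = _ := by group
    · intro hx
      refine ⟨g⁻¹ * x * g, fun i hi => ?_, ?_⟩
      · have h2 := hx i hi
        rw [hg i (lt_of_lt_of_le hi hk)] at h2
        calc g⁻¹ * x * g * Inn.s i = g⁻¹ * (x * (g * Inn.s i * g⁻¹)) * g := by group
          _ = g⁻¹ * (g * Inn.s i * g⁻¹ * x) * g := by rw [h2]
          _ = _ := by group
      · show g * (g⁻¹ * x * g) * g⁻¹ = x
        group
  rw [← h1]
  exact (Nat.card_congr ((St Inn.s k).equivMapOfInjective _ (MulAut.conj g).injective).toEquiv).symm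

theorem c2 : (centralizer ({a 0 * a 1} : Set Spor.Fi23)).index ≤ 111165210 := by
  have := finite
  refine index_le (m := 36787322880) (by norm_num) (by norm_num) ?_
  have h1 := card_St (k := 2) (P := 31671 * 3510) (by norm_num) (by simp [Finset.prod_range_succ, Inn.N])
  have h2 : Nat.card (St t 2) ≤ Nat.card (centralizer ({a 0 * a 1} : Set Spor.Fi23)) := by
    apply Subgroup.card_le_of_le
    intro x hx
    have e0 : x * a 0 = a 0 * x := hx 0 (by norm_num)
    have e1 : x * a 1 = a 1 * x := hx 1 (by norm_num)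
    rw [mem_centralizer_singleton_iff, ← mul_assoc, e0, mul_assoc, e1, mul_assoc]
  rw [card_St_t (by norm_num)] at h2
  omega

/-- three cosets -/
theorem three_le {n : Spor.Fi23} (h0 : n * a 0 * n⁻¹ = a 1) (h1 : n * a 1 * n⁻¹ = a 2) (h2 : n * a 2 * n⁻¹ = a 0) :
    3 * Nat.card (St t 3) ≤ Nat.card (centralizer ({a 0 * a 1 * a 2} : Set Spor.Fi23)) := by
  have := finite
  have hn : n ∈ centralizer ({a 0 * a 1 * a 2} : Set Spor.Fi23) := by
    rw [mem_centralizer_singleton_iff]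
    have e : n * (a 0 * a 1 * a 2) * n⁻¹ = a 0 * a 1 * a 2 := by
      calc n * (a 0 * a 1 * a 2) * n⁻¹ = (n * a 0 * n⁻¹) * (n * a 1 * n⁻¹) * (n * a 2 * n⁻¹) := by group
        _ = a 1 * a 2 * a 0 := by rw [h0, h1, h2]
        _ = a 0 * (a 1 * a 2) := by rw [mul_assoc, a_comm 2 0, ← mul_assoc, a_comm 1 0, mul_assoc]
        _ = _ := by rw [mul_assoc]
    exact mul_inv_eq_iff_eq_mul.1 e
  have hS : ∀ x ∈ St t 3, x ∈ centralizer ({a 0 * a 1 * a 2} : Set Spor.Fi23) := by
    intro x hx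
    have e0 : x * a 0 = a 0 * x := hx 0 (by norm_num)
    have e1 : x * a 1 = a 1 * x := hx 1 (by norm_num)
    have e2 : x * a 2 = a 2 * x := hx 2 (by norm_num)
    rw [mem_centralizer_singleton_iff, ← mul_assoc, ← mul_assoc, e0, mul_assoc (a 0) x, e1, ← mul_assoc, mul_assoc (a 0 * a 1),
      e2, ← mul_assoc]
  have hne : a 0 ≠ a 1 ∧ a 0 ≠ a 2 ∧ a 1 ≠ a 2 := by
    refine ⟨?_, ?_, ?_⟩
    · rw [a0, a1]; exact Cent.ne_gen_a.symm
    · rw [a0, a2]; exact Cent.ne_gen_c.symm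
    · rw [a1, a2]
      intro h
      have := Inn.el_inj (x := some .a) (y := some .c) h
      simp at this
  let f : Fin 3 × St t 3 → centralizer ({a 0 * a 1 * a 2} : Set Spor.Fi23) := fun p =>
    ⟨n ^ (p.1 : ℕ) * (p.2 : Spor.Fi23), mul_mem (pow_mem hn _) (hS _ p.2.2)⟩
  have key : ∀ (i : Fin 3) (x : St t 3), (n ^ (i : ℕ) * (x : Spor.Fi23)) * a 0 * (n ^ (i : ℕ) * (x : Spor.Fi23))⁻¹ =
      t (i : ℕ) := by
    intro i x
    have e0 : (x : Spor.Fi23) * a 0 = a 0 * x := x.2 0 (by norm_num)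
    have e1 : (n ^ (i : ℕ) * (x : Spor.Fi23)) * a 0 * (n ^ (i : ℕ) * (x : Spor.Fi23))⁻¹ = n ^ (i : ℕ) * a 0 * (n ^ (i : ℕ))⁻¹ := by
      calc (n ^ (i : ℕ) * (x : Spor.Fi23)) * a 0 * (n ^ (i : ℕ) * (x : Spor.Fi23))⁻¹
          = n ^ (i : ℕ) * ((x : Spor.Fi23) * a 0) * (x : Spor.Fi23)⁻¹ * (n ^ (i : ℕ))⁻¹ := by group
        _ = _ := by rw [e0]; group
    rw [e1]
    fin_cases i
    · show n ^ 0 * a 0 * (n ^ 0)⁻¹ = a 0
      rw [pow_zero, one_mul, inv_one, mul_one]
    · show n ^ 1 * a 0 * (n ^ 1)⁻¹ = a 1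
      rw [pow_one, h0]
    · show n ^ 2 * a 0 * (n ^ 2)⁻¹ = a 2
      rw [← h1, ← h0, pow_two]
      group
  have tinj : ∀ i < 3, ∀ j < 3, t i = t j → i = j := by
    obtain ⟨h01, h02, h12⟩ := hne
    intro i hi j hj h
    interval_cases i <;> interval_cases j
    · rfl
    · exact absurd h h01
    · exact absurd h h02
    · exact absurd h.symm h01
    · rfl
    · exact absurd h h12
    · exact absurd h.symm h02
    · exact absurd h.symm h12
    · rfl
  have hf : Function.Injective f := by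
    rintro ⟨i, x⟩ ⟨j, y⟩ hxy
    have h3 : n ^ (i : ℕ) * (x : Spor.Fi23) = n ^ (j : ℕ) * (y : Spor.Fi23) := congrArg Subtype.val hxy
    have h4 : t i = t j := by
      rw [← key i x, ← key j y, h3]
    have h5 : i = j := Fin.ext (tinj _ i.2 _ j.2 h4)
    subst h5
    have h6 := mul_left_cancel h3
    rw [Subtype.ext h6]
  have h7 := Nat.card_le_card_of_injective f hf
  rwa [Nat.card_prod, Nat.card_eq_fintype_card, Fintype.card_fin] at h7

theorem c3 : (centralizer ({a 0 * a 1 * a 2} : Set Spor.Fi23)).index ≤ 25679163510 := by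
  have := finite
  refine index_le (m := 159252480) (by norm_num) (by norm_num) ?_
  obtain ⟨n, -, h0, h1, h2⟩ : ∃ n ∈ normalizer (BasDef.A BasFi.e : Set Spor.Fi23),
      n * a 0 * n⁻¹ = a 1 ∧ n * a 1 * n⁻¹ = a 2 ∧ n * a 2 * n⁻¹ = a 0 :=
    Has.three 0 1 2 1 2 0 (by decide) (by decide) (by decide) (by decide) (by decide) (by decide)
  have h3 := three_le h0 h1 h2
  have h4 := card_St (k := 3) (P := 31671 * 3510 * 693) (by norm_num) (by simp [Finset.prod_range_succ, Inn.N])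
  rw [card_St_t (by norm_num)] at h3
  omega

/-! ### The row from the kill -/

section Row

open Cfsg.Agent.H209.Fxy Cfsg.Agent.H999.IFB

theorem kill_of (hk : ∀ H : Subgroup Spor.Fi23, (∀ t ∈ H, orderOf t = 2 → ∀ B ≤ centralizer ({t} : Set Spor.Fi23),
      H.relIndex B ^ 5 < (centralizer ({t} : Set Spor.Fi23)).index) → (∃ t ∈ H, orderOf t = 2) → H = ⊤) :
    Kill Spor.Fi23 := by
  intro H Γ h
  have := finite
  have hs : IsSimpleGroup Spor.Fi23 := isFi23.1
  have hna : ∃ x y : Spor.Fi23, x * y ≠ y * x := ⟨_, _, Cfsg.Agent.Fischer.Fi23Class.z0_ncomm⟩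
  apply h.ne_top
  apply hk H
  · intro t ht h2 B hB
    exact ((IF.E2' h hna ht h2).2.2.2.2 B hB).1
  · obtain ⟨σ, hσ, ho, -⟩ := h.ex
    obtain ⟨g, rfl⟩ := Has.inn σ
    refine ⟨g, (h.conj g).1 hσ, ?_⟩
    rwa [orderOf_conj hna] at ho

theorem row_of (hk : Kill Spor.Fi23) : Row fun T => Spor.IsoFi23 T := by
  rintro T _ _ _ - ⟨e⟩ A Γ hA
  exact Kill.congr e.symm hk A Γ hA

theorem fc : Cfsg.Agent.H757.IF.Fc (BasDef.A BasFi.e) a := ⟨sheet, four, c1, c2, c3⟩

theorem kill : Kill Spor.Fi23 := by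
  have := finite
  exact kill_of fun H hE ht => Cfsg.Agent.H757.IF.kill fc hE ht

/-- **the row `Fi23` of S5719** -/
theorem fi23 : Row fun T => Spor.IsoFi23 T := row_of kill

end Row

end Cfsg.Agent.H822.IF.Fi23
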